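import Mathlib

set_option autoImplicit false

namespace Cfsg.Agent.Lib.Helper70.FI

/-- the subgroup generated by the squares. -/
def Sq (R : Type*) [Group R] : Subgroup R := Subgroup.closure {x | ∃ g : R, x = g * g}

/-- index of the subgroup generated by the squares. -/
noncomputable def b (R : Type*) [Group R] : ℕ := (Sq R).index

/-- a finite 2-group acting faithfully on a finite abelian group of exponent `r`. -/
structure Cfg (r : ℕ) (R V : Type*) [Group R] [CommGroup V] (φ : R →* MulAut V) : Prop where
  finR : Finite R
  finV : Finite V
  two : IsPGroup 2 R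
  exp : ∀ v : V, v ^ r = 1
  inj : Function.Injective φ

/-- invariant subgroups. -/
def Inv {R V : Type*} [Group R] [CommGroup V] (φ : R →* MulAut V) (U : Subgroup V) : Prop :=
  ∀ g : R, ∀ v ∈ U, φ g v ∈ U

end Cfsg.Agent.Lib.Helper70.FI
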