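import Mathlib
import Cfsg.Agent.Lib.Helper70.FI.Defs
import Cfsg.Agent.Lib.Helper1.PGroup

set_option autoImplicit false

namespace Cfsg.Agent.Lib.Helper70.FI

theorem sq_mem {R : Type*} [Group R] (g : R) : g * g ∈ Sq R :=
  Subgroup.subset_closure ⟨g, rfl⟩

theorem Sq_map_le {R R' : Type*} [Group R] [Group R'] (f : R →* R') : (Sq R).map f ≤ Sq R' := by
  unfold Sq
  rw [MonoidHom.map_closure, Subgroup.closure_le]
  rintro _ ⟨_, ⟨g, rfl⟩, rfl⟩
  rw [map_mul]
  exact sq_mem (f g)

theorem Sq_map_eq {R R' : Type*} [Group R] [Group R'] (f : R →* R') (hf : Function.Surjective f) :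
    (Sq R).map f = Sq R' := by
  apply le_antisymm (Sq_map_le f)
  unfold Sq
  rw [Subgroup.closure_le]
  rintro _ ⟨g, rfl⟩
  obtain ⟨x, rfl⟩ := hf g
  exact ⟨x * x, sq_mem x, map_mul f x x⟩

instance Sq_normal {R : Type*} [Group R] : (Sq R).Normal :=
  ⟨fun n hn g => Sq_map_le (MulAut.conj g).toMonoidHom ⟨n, hn, by simp⟩⟩

theorem b_pos {R : Type*} [Group R] [Finite R] : 0 < b R :=
  Nat.pos_of_ne_zero (Subgroup.index_ne_zero_of_finite)

theorem b_le_card {R : Type*} [Group R] [Finite R] : b R ≤ Nat.card R :=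
  Nat.le_of_dvd Nat.card_pos (Subgroup.index_dvd_card _)

theorem b_ext {R : Type*} [Group R] [Finite R] (K : Subgroup R) [K.Normal] :
    b R ≤ b (R ⧸ K) * b ↥K := by
  have h1 : b (R ⧸ K) = (Sq R ⊔ K).index := by
    have e1 : (Sq (R ⧸ K)).index = ((Sq R).map (QuotientGroup.mk' K)).index := by
      rw [Sq_map_eq (QuotientGroup.mk' K) (QuotientGroup.mk'_surjective K)]
    have e2 := Subgroup.index_map (Sq R) (QuotientGroup.mk' K)
    rw [QuotientGroup.ker_mk', MonoidHom.range_eq_top.2 (QuotientGroup.mk'_surjective K),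
      Subgroup.index_top, mul_one] at e2
    exact e1.trans e2
  have h2 : (Sq R).index = (Sq R ⊔ K).index * (Sq R).relIndex (Sq R ⊔ K) :=
    (Subgroup.relIndex_mul_index le_sup_left).symm.trans (mul_comm _ _)
  have h3 : (Sq R).relIndex (Sq R ⊔ K) = (Sq R).relIndex K := Subgroup.relIndex_sup_left K (Sq R)
  have h4 : (Sq R).relIndex K ≤ b ↥K := by
    unfold b Subgroup.relIndex
    apply Nat.le_of_dvd b_pos
    apply Subgroup.index_dvd_of_le
    intro x hx
    rw [Subgroup.mem_subgroupOf]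
    exact Sq_map_le K.subtype ⟨x, hx, rfl⟩
  have h5 : b R = (Sq R ⊔ K).index * (Sq R).relIndex K := h3 ▸ h2
  rw [h5, h1]
  exact Nat.mul_le_mul_left _ h4

theorem b_le_two_mul {R : Type*} [Group R] [Finite R] (K : Subgroup R) (hK : K.index = 2) :
    b R ≤ 2 * b ↥K := by
  have : K.Normal := Subgroup.normal_of_index_eq_two hK
  refine (b_ext K).trans (Nat.mul_le_mul_right _ ?_)
  refine b_le_card.trans ?_
  rw [← hK]
  exact le_of_eq rfl

theorem b_noncomm {R : Type*} [Group R] [Finite R] (h : ∃ x y : R, x * y ≠ y * x) :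
    2 * b R ≤ Nat.card R := by
  obtain ⟨x, y, hxy⟩ := h
  have hne : Sq R ≠ ⊥ := by
    intro h0
    have hs : ∀ g : R, g * g = 1 := fun g => by
      have := sq_mem g
      rwa [h0, Subgroup.mem_bot] at this
    apply hxy
    have h1 := hs (x * y)
    have hx := hs x
    have hy := hs y
    calc x * y = x * (x * y * (x * y)) * y := by rw [h1, mul_one]
      _ = (x * x) * y * x * (y * y) := by group
      _ = y * x := by rw [hx, hy, one_mul, mul_one]
  have h2 : 2 ≤ Nat.card ↥(Sq R) := by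
    have := (Subgroup.one_lt_card_iff_ne_bot (Sq R)).2 hne
    omega
  rw [← Subgroup.card_mul_index (Sq R)]
  exact Nat.mul_le_mul_right _ h2

theorem Sq_le_frattini {R : Type*} [Group R] [Finite R] (h : IsPGroup 2 R) : Sq R ≤ frattini R := by
  have : Fact (Nat.Prime 2) := ⟨Nat.prime_two⟩
  rw [Cfsg.Agent.Lib.Helper1.le_frattini_iff]
  intro M hM
  unfold Sq
  rw [Subgroup.closure_le]
  rintro _ ⟨g, rfl⟩
  have := Cfsg.Agent.Lib.Helper1.pgroup_pow_mem_coatom h hM g
  rwa [pow_two] at this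

end Cfsg.Agent.Lib.Helper70.FI
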