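import Mathlib

set_option autoImplicit false

namespace Cfsg.Agent.Lib.Helper70.FI

theorem num_aux5 (m : ℕ) (hm : 1 ≤ m) : 4 ^ m + 2 ≤ 2 * 5 ^ m := by
  induction m, hm using Nat.le_induction with
  | base => norm_num
  | succ k hk ih => rw [pow_succ, pow_succ]; omega

theorem num_aux16 (m : ℕ) (hm : 1 ≤ m) (r : ℕ) (hr : 5 ≤ r) : 4 ^ m + 2 ≤ 2 * r ^ m := by
  have h1 : 5 ^ m ≤ r ^ m := Nat.pow_le_pow_left hr m
  have h2 := num_aux5 m hm
  omega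

theorem num_aux8 (m : ℕ) (hm : 2 ≤ m) : 8 ^ m ≤ 4 * (3 ^ m - 1) ^ 2 := by
  have h1 : 8 ^ m ≤ 9 ^ m := Nat.pow_le_pow_left (by norm_num) m
  have h2 : (9 : ℕ) ^ m = 3 ^ m * 3 ^ m := by rw [← mul_pow]; norm_num
  have h3 : 9 ≤ 3 ^ m := by
    calc 9 = 3 ^ 2 := by norm_num
      _ ≤ 3 ^ m := Nat.pow_le_pow_right (by norm_num) hm
  obtain ⟨t, ht⟩ : ∃ t, 3 ^ m = t + 1 := ⟨3 ^ m - 1, by omega⟩
  rw [ht] at h2 h3 ⊢
  rw [Nat.add_sub_cancel]
  nlinarith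

theorem num {r c m x : ℕ} (hr : r.Prime) (hr2 : r ≠ 2) (hc : (c = 16 ∧ r ≠ 3) ∨ (c = 8 ∧ r = 3))
    (hm : 1 ≤ m) (h1 : m = 1 → x ≤ 2) (h2 : 2 ≤ m → 4 * x ^ 2 ≤ c ^ m) : x ≤ r ^ m - 1 := by
  have hr3 : 3 ≤ r := by
    have := hr.two_le
    omega
  rcases Nat.lt_or_ge m 2 with hlt | hge
  · have hm1 : m = 1 := by omega
    have := h1 hm1
    rw [hm1, pow_one]
    omega
  · have h := h2 hge
    rcases hc with ⟨rfl, h3⟩ | ⟨rfl, rfl⟩
    · have hr5 : 5 ≤ r := by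
        by_contra hcon
        have h4 : r = 4 := by omega
        rw [h4] at hr
        exact absurd hr (by norm_num)
      have ha := num_aux16 m hm r hr5
      have hx : 2 * x ≤ 4 ^ m := by
        have e : (16 : ℕ) ^ m = (4 ^ m) ^ 2 := by rw [← pow_mul, mul_comm, pow_mul]; norm_num
        rw [e] at h
        have : (2 * x) ^ 2 ≤ (4 ^ m) ^ 2 := by nlinarith
        exact (Nat.pow_le_pow_iff_left (by norm_num)).1 this
      omega
    · have ha := num_aux8 m hge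
      have : x ^ 2 ≤ (3 ^ m - 1) ^ 2 := by omega
      exact (Nat.pow_le_pow_iff_left (by norm_num)).1 this

end Cfsg.Agent.Lib.Helper70.FI
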