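import Mathlib
import Cfsg.Agent.Lib.Helper70.FI.Defs
import Cfsg.Agent.Lib.Helper70.FI.Ext
import Cfsg.Agent.Lib.Helper70.FI.Num
import Cfsg.Agent.Lib.Helper1.FIGEO
import Cfsg.Agent.Lib.Helper1.FISETUP
import Cfsg.Agent.Lib.Helper68.FIDICH
import Cfsg.Agent.Lib.Helper68.FIRED
import Cfsg.Agent.Lib.Helper68.FIPRIME

set_option autoImplicit false

namespace Cfsg.Agent.Lib.Helper70.FI

universe u

theorem card_sub {r m : ℕ} (hr : r.Prime) {V : Type*} [CommGroup V] [Finite V] (hV : Nat.card V = r ^ m)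
    (U : Subgroup V) : ∃ k l, Nat.card ↥U = r ^ k ∧ Nat.card (V ⧸ U) = r ^ l ∧ k + l = m := by
  have h1 : Nat.card ↥U ∣ r ^ m := hV ▸ Subgroup.card_subgroup_dvd_card U
  obtain ⟨k, hk, hk'⟩ := (Nat.dvd_prime_pow hr).1 h1
  have h2 := Subgroup.card_eq_card_quotient_mul_card_subgroup U
  rw [hV, hk'] at h2
  refine ⟨k, m - k, hk', ?_, by omega⟩
  have h3 : r ^ m = r ^ (m - k) * r ^ k := by rw [← pow_add]; congr 1; omega
  rw [h3] at h2
  exact (Nat.eq_of_mul_eq_mul_right (pow_pos hr.pos k) h2).symm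

theorem main {r c : ℕ} (hr : r.Prime) (hr2 : r ≠ 2) (hc : c = 16 ∨ (c = 8 ∧ r = 3)) (m : ℕ) :
    ∀ (R V : Type u) [Group R] [CommGroup V] (φ : R →* MulAut V), Cfg r R V φ →
      Nat.card V = r ^ m → (m = 1 → b R ≤ 2) ∧ (2 ≤ m → 4 * b R ^ 2 ≤ c ^ m) := by
  induction m using Nat.strong_induction_on with
  | _ m ih =>
  intro R V _ _ φ h hV
  have := h.finR
  have := h.finV
  have hc8 : 8 ≤ c := by rcases hc with rfl | ⟨rfl, -⟩ <;> norm_num
  refine ⟨fun hm => (Cfsg.Agent.Lib.Helper68.FI.prime_case hr h (by rw [hV, hm, pow_one])).1, fun hm => ?_⟩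
  -- a general combination lemma
  have comb : ∀ (k l x y : ℕ), 1 ≤ k → 1 ≤ l → ((k = 1 → x ≤ 2) ∧ (2 ≤ k → 4 * x ^ 2 ≤ c ^ k)) →
      ((l = 1 → y ≤ 2) ∧ (2 ≤ l → 4 * y ^ 2 ≤ c ^ l)) → 4 * (x * y) ^ 2 ≤ c ^ (k + l) := by
    intro k l x y hk hl hx hy
    rw [pow_add, mul_pow]
    have hx' : x ^ 2 ≤ c ^ k ∧ (2 ≤ k → 4 * x ^ 2 ≤ c ^ k) ∧ (k = 1 → x ^ 2 ≤ 4) := by
      refine ⟨?_, hx.2, fun h1 => by have := hx.1 h1; nlinarith⟩
      rcases Nat.lt_or_ge k 2 with h1 | h1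
      · have hk1 : k = 1 := by omega
        have := hx.1 hk1
        rw [hk1, pow_one]; nlinarith
      · have := hx.2 h1; omega
    have hy' : y ^ 2 ≤ c ^ l ∧ (2 ≤ l → 4 * y ^ 2 ≤ c ^ l) ∧ (l = 1 → y ^ 2 ≤ 4) := by
      refine ⟨?_, hy.2, fun h1 => by have := hy.1 h1; nlinarith⟩
      rcases Nat.lt_or_ge l 2 with h1 | h1
      · have hl1 : l = 1 := by omega
        have := hy.1 hl1
        rw [hl1, pow_one]; nlinarith
      · have := hy.2 h1; omega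
    rcases Nat.lt_or_ge k 2 with h1 | h1
    · have hk1 : k = 1 := by omega
      have hx4 := hx'.2.2 hk1
      rcases Nat.lt_or_ge l 2 with h2 | h2
      · have hl1 : l = 1 := by omega
        have hy4 := hy'.2.2 hl1
        rw [hk1, hl1, pow_one]
        have h16 : x ^ 2 * y ^ 2 ≤ 4 * 4 := Nat.mul_le_mul hx4 hy4
        nlinarith
      · have hy4 := hy'.2.1 h2
        rw [hk1, pow_one]
        nlinarith
    · have hx4 := hx'.2.1 h1
      calc 4 * (x ^ 2 * y ^ 2) = (4 * x ^ 2) * y ^ 2 := by ring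
        _ ≤ c ^ k * c ^ l := Nat.mul_le_mul hx4 hy'.1
  by_cases hirr : ∀ U : Subgroup V, Inv φ U → U = ⊥ ∨ U = ⊤
  · rcases Cfsg.Agent.Lib.Helper68.FI.dich h.two with h4 | ⟨a, z, hz, hz1, hz2, ha2, ha1, haz, hconj⟩
    · calc 4 * b R ^ 2 ≤ 4 * 4 ^ 2 := by gcongr
        _ = 8 ^ 2 := by norm_num
        _ ≤ c ^ 2 := by gcongr
        _ ≤ c ^ m := Nat.pow_le_pow_right (by omega) hm
    · obtain ⟨P₀, W, hP₀, hW, hWc, hnc⟩ := Cfsg.Agent.Lib.Helper1.FI.geo hr hr2 h hirr hz hz1 hz2 ha2 ha1 haz hconj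
      have hC₀ : Cfg r ↥P₀ V (φ.comp P₀.subtype) :=
        ⟨inferInstance, h.finV, h.two.to_subgroup P₀, h.exp, h.inj.comp Subtype.val_injective⟩
      obtain ⟨R₁, _, φ₁, K, φ₂, hC₁, hC₂, hb, hcard⟩ := Cfsg.Agent.Lib.Helper68.FI.red_of hr hr2 hC₀ W hW (fun K _ => b_ext K)
      obtain ⟨k, l, hk, hl, hkl⟩ := card_sub hr hV W
      have hkk : k + k = m := by
        rw [hk, hV, ← pow_add] at hWc
        exact Nat.pow_right_injective hr.two_le hWc
      have hlk : l = k := by omega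
      subst hlk
      have hk1 : 1 ≤ l := by omega
      have i1 := ih l (by omega) R₁ ↥W φ₁ hC₁ hk
      have i2 := ih l (by omega) ↥K (V ⧸ W) φ₂ hC₂ hl
      have hb2 := b_le_two_mul P₀ hP₀
      rcases Nat.lt_or_ge l 2 with h1 | h1
      · have hl1 : l = 1 := by omega
        have hm2 : m = 2 := by omega
        rcases hc with rfl | ⟨rfl, rfl⟩
        · have j1 := i1.1 hl1
          have j2 := i2.1 hl1
          have : b R ≤ 8 := by nlinarith
          rw [hm2]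
          nlinarith
        · have j1 := (Cfsg.Agent.Lib.Helper68.FI.prime_case hr hC₁ (by rw [hk, hl1, pow_one])).2
          have j2 := (Cfsg.Agent.Lib.Helper68.FI.prime_case hr hC₂ (by rw [hl, hl1, pow_one])).2
          have hP4 : Nat.card ↥P₀ ≤ 4 := by rw [hcard]; nlinarith
          have hR8 : Nat.card R ≤ 8 := by
            rw [← Subgroup.card_mul_index P₀, hP₀]; omega
          have := b_noncomm hnc
          have : b R ≤ 4 := by omega
          rw [hm2]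
          nlinarith
      · have j1 := i1.2 h1
        have j2 := i2.2 h1
        have hle : b R ≤ 2 * (b R₁ * b ↥K) := hb2.trans (Nat.mul_le_mul_left 2 hb)
        calc 4 * b R ^ 2 ≤ 4 * (2 * (b R₁ * b ↥K)) ^ 2 := by gcongr
          _ = (4 * b R₁ ^ 2) * (4 * b ↥K ^ 2) := by ring
          _ ≤ c ^ l * c ^ l := Nat.mul_le_mul j1 j2
          _ = c ^ m := by rw [← pow_add, hkk]
  · push Not at hirr
    obtain ⟨U, hU, hU0, hU1⟩ := hirr
    obtain ⟨R₁, _, φ₁, K, φ₂, hC₁, hC₂, hb, -⟩ := Cfsg.Agent.Lib.Helper68.FI.red_of hr hr2 h U hU (fun K _ => b_ext K)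
    obtain ⟨k, l, hk, hl, hkl⟩ := card_sub hr hV U
    have hk1 : 1 ≤ k := by
      rcases Nat.eq_zero_or_pos k with h0 | h0
      · exfalso; apply hU0
        rw [h0, pow_zero] at hk
        exact Subgroup.card_eq_one.1 hk
      · exact h0
    have hl1 : 1 ≤ l := by
      rcases Nat.eq_zero_or_pos l with h0 | h0
      · exfalso; apply hU1
        rw [h0, pow_zero] at hl
        exact Subgroup.index_eq_one.1 hl
      · exact h0
    have i1 := ih k (by omega) R₁ ↥U φ₁ hC₁ hk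
    have i2 := ih l (by omega) ↥K (V ⧸ U) φ₂ hC₂ hl
    have := comb k l (b R₁) (b ↥K) hk1 hl1 i1 i2
    calc 4 * b R ^ 2 ≤ 4 * (b R₁ * b ↥K) ^ 2 := by gcongr
      _ ≤ c ^ (k + l) := this
      _ = c ^ m := by rw [hkl]

/-! ## FINAL (helper70) -/
theorem S4188_of {G : Type u} [Group G] [Finite G] (N P : Subgroup G) (hN : N.Normal)
    (hNab : IsMulCommutative ↥N) (hNodd : Odd (Nat.card ↥N)) (hP : IsPGroup 2 ↥P) (hdisj : N ⊓ P = ⊥)
    (hprod : N ⊔ P = ⊤) (hmin : N ≠ ⊥ ∧ ∀ M : Subgroup G, M.Normal → M ≠ ⊥ → N ≤ M) :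
    (frattini ↥P).index ≤ Nat.card ↥N - 1 := by
  obtain ⟨r, m, V, _, φ, hr, hr2, hm, hC, hV, hVN⟩ := Cfsg.Agent.Lib.Helper1.FI.setup N P hN hNab hNodd hP hdisj hprod hmin
  have hle : (frattini ↥P).index ≤ b ↥P :=
    Nat.le_of_dvd b_pos (Subgroup.index_dvd_of_le (Sq_le_frattini hP))
  refine hle.trans ?_
  rw [← hVN, hV]
  by_cases h3 : r = 3
  · obtain ⟨h1, h2⟩ := main (c := 8) hr hr2 (Or.inr ⟨rfl, h3⟩) m ↥P V φ hC hV
    exact num hr hr2 (Or.inr ⟨rfl, h3⟩) hm h1 h2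
  · obtain ⟨h1, h2⟩ := main (c := 16) hr hr2 (Or.inl rfl) m ↥P V φ hC hV
    exact num hr hr2 (Or.inl ⟨rfl, h3⟩) hm h1 h2

end Cfsg.Agent.Lib.Helper70.FI
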